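import Mathlib
import Cfsg.Agent.Lib.Helper9.S3805.Defs

/-!
# S3805, package CCount: the local count

For `p ∈ A1₀`, the number of pairs `(x, y)` with `x z x⁻¹ * y z y⁻¹ = ψ p` is `|C_G(z)|²` times
the number of pairs of involutions `(p₁, p₂)` of `P`, both conjugate to `z`, with `p₁ p₂ = p`.
-/

set_option autoImplicit false
set_option linter.style.haveILetI false

namespace Cfsg.Agent.Lib.Helper80.S3805

open Cfsg.Agent.Lib.Helper9.S3805

universe u

/-- The number of elements conjugating `z` to a given conjugate is `|C_G(z)|`. -/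
theorem card_conj_fiber {G : Type u} [Group G] [Fintype G] [DecidableEq G] (z g : G) :
    (Finset.univ.filter (fun x : G => x * z * x⁻¹ = g * z * g⁻¹)).card =
      Nat.card (Subgroup.centralizer ({z} : Set G)) := by
  rw [← Nat.card_eq_finsetCard]
  apply Nat.card_congr
  refine ⟨fun x => ⟨g⁻¹ * x.1, ?_⟩, fun c => ⟨g * c.1, ?_⟩, ?_, ?_⟩
  · have hx := (Finset.mem_filter.mp x.2).2
    rw [Subgroup.mem_centralizer_iff]
    intro h hh
    rw [Set.mem_singleton_iff] at hh
    subst hh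
    have h1 : x.1 * h = g * h * g⁻¹ * x.1 := by
      have h2 : x.1 * h = (x.1 * h * (x.1)⁻¹) * x.1 := by group
      exact h2.trans (congrArg (· * x.1) hx)
    calc h * (g⁻¹ * x.1) = g⁻¹ * (g * h * g⁻¹ * x.1) := by group
      _ = g⁻¹ * (x.1 * h) := by rw [h1]
      _ = g⁻¹ * x.1 * h := by group
  · have hc := c.2
    rw [Subgroup.mem_centralizer_iff] at hc
    have h1 : z * c.1 = c.1 * z := hc z (Set.mem_singleton z)
    refine Finset.mem_filter.mpr ⟨Finset.mem_univ _, ?_⟩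
    calc g * c.1 * z * (g * c.1)⁻¹ = g * (c.1 * z) * c.1⁻¹ * g⁻¹ := by group
      _ = g * (z * c.1) * c.1⁻¹ * g⁻¹ := by rw [h1]
      _ = g * z * g⁻¹ := by group
  · intro x
    apply Subtype.ext
    simp
  · intro c
    apply Subtype.ext
    simp

/-- The local count. -/
theorem ccount_local (hTIA : PkgTIA.{u}) {G : Type u} [Group G] [Fintype G] [DecidableEq G]
    (T : Subgroup G) (M : Model G T) (hLoc : Loc T) (z : G) (hz : z * z = 1) (hz1 : z ≠ 1)
    (Z : P → Bool)
    (hZ : ∀ p : P, p * p = 1 → p ≠ 1 → (Z p = true ↔ ∃ g : G, g * z * g⁻¹ = M.ψ p))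
    (p : P) (hp : inA1 p = true) :
    (Finset.univ.filter (fun xy : G × G =>
        xy.1 * z * xy.1⁻¹ * (xy.2 * z * xy.2⁻¹) = M.ψ p)).card =
      Nat.card (Subgroup.centralizer ({z} : Set G)) ^ 2 *
        (Finset.univ.filter (fun pq : P × P => pq.1 * pq.1 = 1 ∧ pq.1 ≠ 1 ∧ pq.2 * pq.2 = 1 ∧
          pq.2 ≠ 1 ∧ Z pq.1 = true ∧ Z pq.2 = true ∧ pq.1 * pq.2 = p)).card := by
  classical
  set B : Finset (P × P) := Finset.univ.filter (fun pq : P × P => pq.1 * pq.1 = 1 ∧ pq.1 ≠ 1 ∧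
    pq.2 * pq.2 = 1 ∧ pq.2 ≠ 1 ∧ Z pq.1 = true ∧ Z pq.2 = true ∧ pq.1 * pq.2 = p) with hB
  -- conjugates of `z` are involutions
  have hinv : ∀ x : G, (x * z * x⁻¹) * (x * z * x⁻¹) = 1 := by
    intro x
    calc (x * z * x⁻¹) * (x * z * x⁻¹) = x * (z * z) * x⁻¹ := by group
      _ = 1 := by rw [hz]; group
  have hne : ∀ x : G, x * z * x⁻¹ ≠ 1 := by
    intro x h
    apply hz1
    calc z = x⁻¹ * (x * z * x⁻¹) * x := by group
      _ = 1 := by rw [h]; group
  -- the set of pairs as a disjoint union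
  have hU : Finset.univ.filter (fun xy : G × G =>
      xy.1 * z * xy.1⁻¹ * (xy.2 * z * xy.2⁻¹) = M.ψ p) =
      B.biUnion (fun pq => (Finset.univ.filter (fun x : G => x * z * x⁻¹ = M.ψ pq.1)) ×ˢ
        (Finset.univ.filter (fun y : G => y * z * y⁻¹ = M.ψ pq.2))) := by
    ext ⟨x, y⟩
    simp only [Finset.mem_filter, Finset.mem_univ, true_and, Finset.mem_biUnion,
      Finset.mem_product]
    constructor
    · intro h
      set u := x * z * x⁻¹ with hu
      set v := y * z * y⁻¹ with hv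
      have huu : u * u = 1 := hinv x
      have hvv : v * v = 1 := hinv y
      have huinv : u⁻¹ = u := inv_eq_of_mul_eq_one_right huu
      have hconj : u * M.ψ p * u⁻¹ = M.ψ p⁻¹ := by
        rw [map_inv, ← h, huinv]
        apply eq_inv_of_mul_eq_one_left
        calc u * (u * v) * u * (u * v) = (u * u) * v * (u * u) * v := by group
          _ = 1 := by rw [huu, one_mul, mul_one, hvv]
      have huN : u ∈ Subgroup.normalizer (T : Set G) := hTIA T M hLoc u p p⁻¹ hp hconj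
      rw [← M.range_eq] at huN
      obtain ⟨p₁, hp₁⟩ := huN
      have hp₂ : M.ψ (p₁⁻¹ * p) = v := by
        rw [map_mul, map_inv, hp₁, ← h, huinv, ← mul_assoc, huu, one_mul]
      have h11 : p₁ * p₁ = 1 := by
        apply M.inj
        rw [map_mul, hp₁, huu, map_one]
      have h1ne : p₁ ≠ 1 := by
        intro h1
        rw [h1, map_one] at hp₁
        exact hne x hp₁.symm
      have h22 : (p₁⁻¹ * p) * (p₁⁻¹ * p) = 1 := by
        apply M.inj
        rw [map_mul, hp₂, hvv, map_one]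
      have h2ne : p₁⁻¹ * p ≠ 1 := by
        intro h1
        rw [h1, map_one] at hp₂
        exact hne y hp₂.symm
      refine ⟨(p₁, p₁⁻¹ * p), ?_, hp₁.symm, hp₂.symm⟩
      rw [hB]
      refine Finset.mem_filter.mpr ⟨Finset.mem_univ _, h11, h1ne, h22, h2ne, ?_, ?_, ?_⟩
      · exact (hZ p₁ h11 h1ne).mpr ⟨x, hp₁.symm⟩
      · exact (hZ (p₁⁻¹ * p) h22 h2ne).mpr ⟨y, hp₂.symm⟩
      · group
    · rintro ⟨pq, hpq, hx, hy⟩
      rw [hB] at hpq
      have hprod := (Finset.mem_filter.mp hpq).2.2.2.2.2.2.2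
      rw [hx, hy, ← map_mul, hprod]
  rw [hU, Finset.card_biUnion]
  · have hterm : ∀ pq ∈ B, ((Finset.univ.filter (fun x : G => x * z * x⁻¹ = M.ψ pq.1)) ×ˢ
        (Finset.univ.filter (fun y : G => y * z * y⁻¹ = M.ψ pq.2))).card =
        Nat.card (Subgroup.centralizer ({z} : Set G)) ^ 2 := by
      intro pq hpq
      rw [hB] at hpq
      obtain ⟨-, h11, h1ne, h22, h2ne, hZ1, hZ2, -⟩ := Finset.mem_filter.mp hpq
      obtain ⟨g₁, hg₁⟩ := (hZ pq.1 h11 h1ne).mp hZ1
      obtain ⟨g₂, hg₂⟩ := (hZ pq.2 h22 h2ne).mp hZ2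
      rw [Finset.card_product, ← hg₁, ← hg₂, card_conj_fiber, card_conj_fiber, sq]
    rw [Finset.sum_congr rfl hterm, Finset.sum_const, smul_eq_mul, mul_comm]
  · intro pq _ pq' _ hne'
    rw [Function.onFun, Finset.disjoint_left]
    rintro ⟨x, y⟩ h1 h2
    simp only [Finset.mem_product, Finset.mem_filter, Finset.mem_univ, true_and] at h1 h2
    apply hne'
    apply Prod.ext
    · exact M.inj (h1.1.symm.trans h2.1)
    · exact M.inj (h1.2.symm.trans h2.2)

end Cfsg.Agent.Lib.Helper80.S3805
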