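import Mathlib
import Cfsg.Agent.Lib.Helper9.S3805.Defs
import Cfsg.Agent.Lib.Helper80.S3805.CCountLocal
import Cfsg.Agent.Lib.Helper80.CharKer
import Cfsg.Agent.Lib.Helper81.Schur

/-!
# S3805, package CCount: the counting identity for an involution
-/

set_option autoImplicit false
set_option linter.style.haveILetI false

namespace Cfsg.Agent.Lib.Helper80.S3805

open Cfsg.Agent.Lib.Helper9.S3805

open scoped ComplexConjugate

universe u

/-- The class sum identity for an irreducible character. -/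
theorem sum_conj_conj_irr {G : Type u} [Group G] [Fintype G] {χ : G → ℂ}
    (hχ : Cfsg.IsIrrCharacter G χ) (z : G) :
    ∑ x : G, ∑ y : G, χ (x * z * x⁻¹ * (y * z * y⁻¹)) =
      (Nat.card G : ℂ) ^ 2 * (χ z) ^ 2 / χ 1 := by
  obtain ⟨n, ρ, hirr, rfl⟩ := hχ
  have hfin : (Module.finrank ℂ (Fin n → ℂ) : ℂ) = ρ.character 1 := by
    rw [Cfsg.Agent.Lib.Helper80.char_one_fin]
    simp
  have hinner : ∀ x : G, ∑ y : G, ρ.character (x * z * x⁻¹ * (y * z * y⁻¹)) =
      (Nat.card G : ℂ) * ρ.character z * ρ.character z / ρ.character 1 := by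
    intro x
    rw [Cfsg.Agent.Lib.Helper81.sum_char_mul_conj ρ (x * z * x⁻¹) z, hfin]
    have : ρ.character (x * z * x⁻¹) = ρ.character z := ρ.char_conj z x
    rw [this]
  simp_rw [hinner]
  rw [Finset.sum_const, Finset.card_univ, ← Nat.card_eq_fintype_card, nsmul_eq_mul]
  ring

/-- The number of pairs `(p₁, p₂)` in `pairCount`, split by the product. -/
theorem pairCount_eq_sum (Z : P → Bool) :
    pairCount Z = ∑ p : P, if inA1 p = true then
      (Finset.univ.filter (fun pq : P × P => pq.1 * pq.1 = 1 ∧ pq.1 ≠ 1 ∧ pq.2 * pq.2 = 1 ∧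
        pq.2 ≠ 1 ∧ Z pq.1 = true ∧ Z pq.2 = true ∧ pq.1 * pq.2 = p)).card else 0 := by
  classical
  unfold pairCount
  rw [Finset.card_eq_sum_card_fiberwise (f := fun pq : P × P => pq.1 * pq.2)
    (t := Finset.univ.filter (fun p : P => inA1 p = true))]
  · rw [Finset.sum_filter]
    refine Finset.sum_congr rfl fun p _ => ?_
    by_cases hp : inA1 p = true
    · rw [if_pos hp, if_pos hp]
      congr 1
      ext pq
      simp only [Finset.mem_filter, Finset.mem_univ, true_and]
      constructor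
      · rintro ⟨⟨h1, h2, h3, h4, h5, h6, -⟩, h8⟩
        exact ⟨h1, h2, h3, h4, h5, h6, h8⟩
      · rintro ⟨h1, h2, h3, h4, h5, h6, h8⟩
        exact ⟨⟨h1, h2, h3, h4, h5, h6, by rw [h8]; exact hp⟩, h8⟩
    · rw [if_neg hp, if_neg hp]
  · intro pq hpq
    have := (Finset.mem_filter.mp hpq).2.2.2.2.2.2.2
    exact Finset.mem_filter.mpr ⟨Finset.mem_univ _, this⟩

/-- CCount: the counting identity for an involution `z`. -/
theorem pkgCCount : PkgCCount.{u} := by
  intro hTIA hTISum G _ _ T M hLoc E F hEx z hz hz1 Z hZ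
  classical
  have hcard : (Nat.card G : ℂ) ≠ 0 := by exact_mod_cast (Nat.card_pos (α := G)).ne'
  -- the function `(x, y) ↦ x z x⁻¹ * y z y⁻¹` and its fibre counts
  set f : G × G → G := fun xy => xy.1 * z * xy.1⁻¹ * (xy.2 * z * xy.2⁻¹) with hf
  set φ : G → ℂ := fun g => ((Finset.univ.filter (fun xy : G × G => f xy = g)).card : ℂ) with hφ
  -- `φ` is a class function
  have hφcls : ∀ g w : G, φ (w * g * w⁻¹) = φ g := by
    intro g w
    simp only [hφ]
    congr 1
    apply Finset.card_bij' (fun (xy : G × G) _ => (w⁻¹ * xy.1, w⁻¹ * xy.2))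
      (fun (xy : G × G) _ => (w * xy.1, w * xy.2))
    · intro xy hxy
      have h := (Finset.mem_filter.mp hxy).2
      refine Finset.mem_filter.mpr ⟨Finset.mem_univ _, ?_⟩
      simp only [hf] at h ⊢
      calc w⁻¹ * xy.1 * z * (w⁻¹ * xy.1)⁻¹ * (w⁻¹ * xy.2 * z * (w⁻¹ * xy.2)⁻¹)
          = w⁻¹ * (xy.1 * z * xy.1⁻¹ * (xy.2 * z * xy.2⁻¹)) * w := by group
        _ = g := by rw [h]; group
    · intro xy hxy
      have h := (Finset.mem_filter.mp hxy).2
      refine Finset.mem_filter.mpr ⟨Finset.mem_univ _, ?_⟩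
      simp only [hf] at h ⊢
      calc w * xy.1 * z * (w * xy.1)⁻¹ * (w * xy.2 * z * (w * xy.2)⁻¹)
          = w * (xy.1 * z * xy.1⁻¹ * (xy.2 * z * xy.2⁻¹)) * w⁻¹ := by group
        _ = w * g * w⁻¹ := by rw [h]
    · intro xy _
      simp
    · intro xy _
      simp
  -- the double sum, regrouped by the value of `f`
  have hS : ∑ x : G, ∑ y : G, (1 + E (x * z * x⁻¹ * (y * z * y⁻¹)) -
      F (x * z * x⁻¹ * (y * z * y⁻¹))) = ∑ g : G, (1 + E g - F g) * φ g := by
    rw [← Finset.sum_product' (s := Finset.univ) (t := Finset.univ)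
      (f := fun x y => (1 + E (x * z * x⁻¹ * (y * z * y⁻¹)) - F (x * z * x⁻¹ * (y * z * y⁻¹))))]
    rw [Finset.univ_product_univ]
    rw [← Finset.sum_fiberwise (s := Finset.univ) (g := f)
      (f := fun xy : G × G => (1 + E (xy.1 * z * xy.1⁻¹ * (xy.2 * z * xy.2⁻¹)) -
        F (xy.1 * z * xy.1⁻¹ * (xy.2 * z * xy.2⁻¹))))]
    refine Finset.sum_congr rfl fun g _ => ?_
    have : ∀ xy ∈ Finset.univ.filter (fun xy : G × G => f xy = g),
        (1 + E (xy.1 * z * xy.1⁻¹ * (xy.2 * z * xy.2⁻¹)) -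
          F (xy.1 * z * xy.1⁻¹ * (xy.2 * z * xy.2⁻¹))) = 1 + E g - F g := by
      intro xy hxy
      have h := (Finset.mem_filter.mp hxy).2
      simp only [hf] at h
      rw [h]
    rw [Finset.sum_congr rfl this, Finset.sum_const, nsmul_eq_mul, mul_comm]
  -- part (a)
  have hA : ∑ x : G, ∑ y : G, (1 + E (x * z * x⁻¹ * (y * z * y⁻¹)) -
      F (x * z * x⁻¹ * (y * z * y⁻¹))) =
      (Nat.card G : ℂ) ^ 2 * (1 + E z ^ 2 / E 1 - F z ^ 2 / F 1) := by
    have h1 := sum_conj_conj_irr hEx.irrE z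
    have h2 := sum_conj_conj_irr hEx.irrF z
    simp_rw [Finset.sum_sub_distrib, Finset.sum_add_distrib]
    rw [h1, h2]
    simp only [Finset.sum_const, Finset.card_univ, nsmul_eq_mul, mul_one,
      ← Nat.card_eq_fintype_card]
    ring
  -- TISum
  have hT := hTISum hTIA T M hLoc E F hEx φ hφcls
  -- the local count
  have hloc : ∑ p : P, (if inA1 p = true then φ (M.ψ p) else 0) =
      (Nat.card (Subgroup.centralizer ({z} : Set G)) : ℂ) ^ 2 * ((pairCount Z : ℕ) : ℂ) := by
    rw [pairCount_eq_sum Z]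
    push_cast
    rw [Finset.mul_sum]
    refine Finset.sum_congr rfl fun p _ => ?_
    by_cases hp : inA1 p = true
    · rw [if_pos hp, if_pos hp]
      have := ccount_local hTIA T M hLoc z hz hz1 Z hZ p hp
      simp only [hφ, hf]
      rw [this]
      push_cast
      ring
    · rw [if_neg hp, if_neg hp, mul_zero]
  rw [hloc, ← hS, hA] at hT
  have h2 : (Nat.card G : ℂ) * ((Nat.card (Subgroup.centralizer ({z} : Set G)) : ℂ) ^ 2 *
      ((pairCount Z : ℕ) : ℂ)) = (Nat.card G : ℂ) *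
      (12 * (Nat.card G : ℂ) * (1 + E z ^ 2 / E 1 - F z ^ 2 / F 1)) := by
    linear_combination -hT
  exact mul_left_cancel₀ hcard h2

end Cfsg.Agent.Lib.Helper80.S3805
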