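import Mathlib
import Cfsg.Agent.Lib.Helper9.S3805.Defs
import Cfsg.Agent.Lib.Helper80.CharOps

/-!
# S3805, package CLin3: a non-trivial linear character trivial on `C1` equals `E`

Also the common tool `theta_inner`: the inner product of `Θ = 1 + E - F` with an irreducible
character, computed from the package `TISum`.
-/

set_option autoImplicit false
set_option linter.style.haveILetI false

namespace Cfsg.Agent.Lib.Helper80.S3805

open Cfsg.Agent.Lib.Helper9.S3805

open scoped ComplexConjugate

universe u

/-- The sum of `Θ · conj χ` over the group, for an irreducible character `χ`, in terms of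
Kronecker symbols. -/
theorem theta_sum_irr {G : Type u} [Group G] [Fintype G] {E F χ : G → ℂ}
    (hE : Cfsg.IsIrrCharacter G E) (hF : Cfsg.IsIrrCharacter G F)
    (hχ : Cfsg.IsIrrCharacter G χ) :
    ∑ g : G, (1 + E g - F g) * conj (χ g) =
      (Nat.card G : ℂ) * ((if (fun _ => (1 : ℂ)) = χ then 1 else 0) +
        (if E = χ then 1 else 0) - (if F = χ then 1 else 0)) := by
  classical
  have hc : (Nat.card G : ℂ) ≠ 0 := by exact_mod_cast (Nat.card_pos (α := G)).ne'
  have h1 := classInner_irr_fun (isIrrCharacter_one (G := G)) hχ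
  have h2 := classInner_irr_fun hE hχ
  have h3 := classInner_irr_fun hF hχ
  rw [← h1, ← h2, ← h3]
  unfold Cfsg.classInner
  rw [← mul_add, ← mul_sub, ← mul_assoc, mul_inv_cancel₀ hc, one_mul, ← Finset.sum_add_distrib,
    ← Finset.sum_sub_distrib]
  refine Finset.sum_congr rfl fun g _ => ?_
  ring

/-- The number of elements of `A1₀`. -/
theorem card_inA1 : (Finset.univ.filter (fun p : P => inA1 p = true)).card = 12 := by
  decide

theorem inC1_of_inA1 (p : P) (h : inA1 p = true) : inC1 p = true := by
  unfold inA1 at h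
  unfold inC1
  exact (Bool.and_eq_true _ _ ▸ h).1

/-- CLin3: a non-trivial linear character trivial on `C1` equals `E`.
(`PkgTISum` is itself an implication from `PkgTIA`, so `PkgTIA` is needed as a hypothesis.) -/
theorem pkgCLin3 (hTIA : PkgTIA.{u}) : PkgCLin3.{u} := by
  intro hTISum G _ _ T M hLoc E F hEx lam hC hi
  classical
  haveI := Fintype.ofFinite G
  have hcard : (Nat.card G : ℂ) ≠ 0 := by exact_mod_cast (Nat.card_pos (α := G)).ne'
  -- the class function `conj ∘ lam`
  have hlamIrr : Cfsg.IsIrrCharacter G (fun g => ((lam g : ℂˣ) : ℂ)) := isIrrCharacter_of_hom lam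
  have hcls : ∀ g x : G, conj (((lam (x * g * x⁻¹) : ℂˣ) : ℂ)) = conj (((lam g : ℂˣ) : ℂ)) := by
    intro g x
    have : lam (x * g * x⁻¹) = lam g := by
      rw [map_mul, map_mul, map_inv, mul_comm, ← mul_assoc, inv_mul_cancel, one_mul]
    rw [this]
  have h := hTISum hTIA T M hLoc E F hEx (fun g => conj (((lam g : ℂˣ) : ℂ))) hcls
  -- the right-hand side
  have hR : ∑ p : P, (if inA1 p = true then conj (((lam (M.ψ p) : ℂˣ) : ℂ)) else 0) = 12 := by
    have : ∀ p : P, (if inA1 p = true then conj (((lam (M.ψ p) : ℂˣ) : ℂ)) else 0) =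
        if inA1 p = true then (1 : ℂ) else 0 := by
      intro p
      by_cases hp : inA1 p = true
      · rw [if_pos hp, if_pos hp, hC p (inC1_of_inA1 p hp)]
        simp
      · rw [if_neg hp, if_neg hp]
    rw [Finset.sum_congr rfl fun p _ => this p, ← Finset.sum_filter, Finset.sum_const, card_inA1]
    simp
  rw [hR, theta_sum_irr hEx.irrE hEx.irrF hlamIrr] at h
  -- the trivial character is not `lam`
  have hne1 : (fun _ : G => (1 : ℂ)) ≠ fun g => ((lam g : ℂˣ) : ℂ) := by
    intro h1
    have := congrFun h1 (M.ψ i₀)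
    rw [hi] at this
    norm_num at this
  rw [if_neg hne1] at h
  have h' : ((if E = (fun g => ((lam g : ℂˣ) : ℂ)) then (1 : ℂ) else 0) -
      (if F = (fun g => ((lam g : ℂˣ) : ℂ)) then (1 : ℂ) else 0)) = 1 := by
    have h2 : (12 : ℂ) * (Nat.card G : ℂ) * (0 + (if E = (fun g => ((lam g : ℂˣ) : ℂ)) then (1 : ℂ)
        else 0) - (if F = (fun g => ((lam g : ℂˣ) : ℂ)) then (1 : ℂ) else 0)) =
        (12 : ℂ) * (Nat.card G : ℂ) * 1 := by
      linear_combination h
    have h3 := mul_left_cancel₀ (mul_ne_zero (by norm_num) hcard) h2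
    linear_combination h3
  by_cases hEl : E = fun g => ((lam g : ℂˣ) : ℂ)
  · intro g
    exact congrFun hEl g
  · exfalso
    rw [if_neg hEl] at h'
    by_cases hFl : F = fun g => ((lam g : ℂˣ) : ℂ)
    · rw [if_pos hFl] at h'
      norm_num at h'
    · rw [if_neg hFl] at h'
      norm_num at h'

end Cfsg.Agent.Lib.Helper80.S3805
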