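import Mathlib
import Cfsg.Agent.Lib.Helper9.S3805.Defs
import Cfsg.Agent.Lib.Helper80.S3805.CLin3
import Cfsg.Agent.Lib.Helper15.LinIrr

/-!
# S3805, package CTwist: twisting `Θ = 1 + E - F` by a sign character
-/

set_option autoImplicit false
set_option linter.style.haveILetI false

namespace Cfsg.Agent.Lib.Helper80.S3805

open Cfsg.Agent.Lib.Helper9.S3805

open scoped ComplexConjugate

universe u

/-- The elements of `A1₀` with second coordinate a reflection: there are six of them. -/
theorem card_inA1_refl :
    (Finset.univ.filter (fun p : P => inA1 p = true ∧ isRot p.2 = false)).card = 6 := by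
  decide

set_option maxRecDepth 100000 in
/-- They are all `P`-conjugate to `(r 1, sr 0)`. -/
theorem conj_w_of_inA1_refl : ∀ p : P, inA1 p = true → isRot p.2 = false →
    ∃ q : P, q * (DihedralGroup.r 1, DihedralGroup.sr 0) * q⁻¹ = p := by
  decide

/-- CTwist: twisting `Θ` by a sign character.
(`PkgTISum` is itself an implication from `PkgTIA`, so `PkgTIA` is needed as a hypothesis.) -/
theorem pkgCTwist (hTIA : PkgTIA.{u}) : PkgCTwist.{u} := by
  intro hTISum G _ _ T M hLoc E F hEx lam hpm hlam
  classical
  haveI := Fintype.ofFinite G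
  have hcard : (Nat.card G : ℂ) ≠ 0 := by exact_mod_cast (Nat.card_pos (α := G)).ne'
  set lamC : G → ℂ := fun g => ((lam g : ℂˣ) : ℂ) with hlamC
  have hlamIrr : Cfsg.IsIrrCharacter G lamC := isIrrCharacter_of_hom lam
  have hlamChar : Cfsg.IsCharacter G lamC := isCharacter_of_isIrrCharacter hlamIrr
  have hlam1 : lamC 1 = 1 := by simp [hlamC]
  have hpmC : ∀ g, lamC g = 1 ∨ lamC g = -1 := by
    intro g
    rcases hpm g with h | h
    · left; simp [hlamC, h]
    · right; simp [hlamC, h]
  have hconj : ∀ g, conj (lamC g) = lamC g := by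
    intro g
    rcases hpmC g with h | h <;> rw [h] <;> simp
  have hlamcls : ∀ g x : G, lamC (x * g * x⁻¹) = lamC g := by
    intro g x
    have : lam (x * g * x⁻¹) = lam g := by
      rw [map_mul, map_mul, map_inv, mul_comm, ← mul_assoc, inv_mul_cancel, one_mul]
    simp only [hlamC, this]
  have hEcls : ∀ g x : G, E (x * g * x⁻¹) = E g :=
    isClassFunction_of_isCharacter (isCharacter_of_isIrrCharacter hEx.irrE)
  -- the twisted character
  have hTw : Cfsg.IsIrrCharacter G (lamC * E) :=
    Cfsg.Agent.Lib.Helper15.isIrrCharacter_lin_mul hlamChar hlam1 hEx.irrE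
  -- TISum for `φ = (1 - lam) * conj E`
  have h := hTISum hTIA T M hLoc E F hEx (fun g => (1 - lamC g) * conj (E g)) (by
    intro g x
    simp only [hlamcls g x, hEcls g x])
  -- left-hand side
  have hL : ∑ g : G, (1 + E g - F g) * ((1 - lamC g) * conj (E g)) =
      (Nat.card G : ℂ) * (1 - (if (fun _ => (1 : ℂ)) = lamC * E then 1 else 0) -
        (if E = lamC * E then 1 else 0)) := by
    have h1 := theta_sum_irr hEx.irrE hEx.irrF hEx.irrE
    have h2 := theta_sum_irr hEx.irrE hEx.irrF hTw
    have hne1 : (fun _ : G => (1 : ℂ)) ≠ E := fun h => hEx.neE h.symm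
    have hFE : F ≠ E := by
      intro h
      have := hEx.deg
      rw [h] at this
      exact absurd this (by simp)
    have hFT : F ≠ lamC * E := by
      intro h
      have := hEx.deg
      rw [h] at this
      simp only [Pi.mul_apply, hlam1, one_mul] at this
      exact absurd this (by simp)
    rw [if_neg hne1, if_pos rfl, if_neg hFE] at h1
    rw [if_neg hFT] at h2
    have h3 : ∑ g : G, (1 + E g - F g) * ((1 - lamC g) * conj (E g)) =
        ∑ g : G, (1 + E g - F g) * conj (E g) -
          ∑ g : G, (1 + E g - F g) * conj ((lamC * E) g) := by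
      rw [← Finset.sum_sub_distrib]
      refine Finset.sum_congr rfl fun g _ => ?_
      rw [Pi.mul_apply, map_mul, hconj g]
      ring
    rw [h3, h1, h2]
    ring
  -- right-hand side
  have hR : ∑ p : P, (if inA1 p = true then (1 - lamC (M.ψ p)) * conj (E (M.ψ p)) else 0) =
      12 * conj (E (M.ψ (DihedralGroup.r 1, DihedralGroup.sr 0))) := by
    have : ∀ p : P, (if inA1 p = true then (1 - lamC (M.ψ p)) * conj (E (M.ψ p)) else 0) =
        if (inA1 p = true ∧ isRot p.2 = false) then
          2 * conj (E (M.ψ (DihedralGroup.r 1, DihedralGroup.sr 0))) else 0 := by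
      intro p
      by_cases hp : inA1 p = true
      · by_cases hr : isRot p.2 = true
        · have hl : lamC (M.ψ p) = 1 := by
            simp only [hlamC, hlam p, if_pos hr]
            simp
          rw [if_pos hp, if_neg (by simp [hr]), hl]
          ring
        · have hr' : isRot p.2 = false := by simpa using hr
          have hl : lamC (M.ψ p) = -1 := by
            simp only [hlamC, hlam p, if_neg hr]
            simp
          obtain ⟨q, hq⟩ := conj_w_of_inA1_refl p hp hr'
          have hE : E (M.ψ p) = E (M.ψ (DihedralGroup.r 1, DihedralGroup.sr 0)) := by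
            rw [← hq, map_mul, map_mul, map_inv, hEcls]
          rw [if_pos hp, if_pos ⟨hp, hr'⟩, hl, hE]
          ring
      · rw [if_neg hp, if_neg (fun h => hp h.1)]
    rw [Finset.sum_congr rfl fun p _ => this p, ← Finset.sum_filter, Finset.sum_const,
      card_inA1_refl]
    simp only [nsmul_eq_mul]
    push_cast
    ring
  rw [hL, hR] at h
  have hkey : conj (E (M.ψ (DihedralGroup.r 1, DihedralGroup.sr 0))) =
      1 - (if (fun _ => (1 : ℂ)) = lamC * E then 1 else 0) - (if E = lamC * E then 1 else 0) := by
    have h2 : (12 : ℂ) * (Nat.card G : ℂ) *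
        conj (E (M.ψ (DihedralGroup.r 1, DihedralGroup.sr 0))) =
        (12 : ℂ) * (Nat.card G : ℂ) * (1 - (if (fun _ => (1 : ℂ)) = lamC * E then 1 else 0) -
          (if E = lamC * E then 1 else 0)) := by
      linear_combination -h
    exact mul_left_cancel₀ (mul_ne_zero (by norm_num) hcard) h2
  by_cases hEE : E = lamC * E
  · right; left
    intro g hg
    have h1 := congrFun hEE g
    have h2 : lamC g = -1 := by simp [hlamC, hg]
    rw [Pi.mul_apply, h2] at h1
    have h3 : (2 : ℂ) * E g = 0 := by linear_combination h1
    rcases mul_eq_zero.mp h3 with h4 | h4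
    · norm_num at h4
    · exact h4
  · by_cases h1E : (fun _ : G => (1 : ℂ)) = lamC * E
    · right; right
      intro g
      have h1 := congrFun h1E g
      rw [Pi.mul_apply] at h1
      change E g = lamC g
      rcases hpmC g with h2 | h2
      · rw [h2] at h1 ⊢
        linear_combination -h1
      · rw [h2] at h1 ⊢
        linear_combination h1
    · left
      rw [if_neg h1E, if_neg hEE] at hkey
      have h2 := congrArg conj hkey
      rw [Complex.conj_conj] at h2
      rw [h2]
      simp

end Cfsg.Agent.Lib.Helper80.S3805
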